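import Cfsg.Agent.H405.EE.Comm

/-!
# S3384, piece P: the embedding of `chevD4.group k` into `chevE8.group k` in characteristic 2 (helper405)

`exists_psi` : four roots of `E₈` of type `D₄` give an injective homomorphism `x_a(c) ↦ x_(Σ a_i b_i)(c)`.
-/

set_option autoImplicit false
set_option linter.unusedSectionVars false

open CoxeterSystem Subgroup Cfsg Cfsg.Lie Cfsg.Lie.ChevalleyDatum
open Cfsg.Agent.ChevalleyStructure Cfsg.Agent.ChevalleyStructure.Elts Cfsg.Agent.ChevalleyStructure.CoxeterGeom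
  Cfsg.Agent.ChevalleyStructure.CoxeterGeomTypes Cfsg.Agent.ChevalleyStructure.NPerm
  Cfsg.Agent.ChevalleyStructure.RootVec
open Cfsg.Agent.Tits.Roots Cfsg.Agent.Tits.Core Cfsg.Agent.Nodes Cfsg.Agent.Nodes.Reps Cfsg.Agent.Nodes.BNOf
  Cfsg.Agent.Nodes.RGDChev Cfsg.Agent.Nodes.Bruhat Cfsg.Agent.Nodes.Coroot
open Cfsg.Agent.KFacts.RgdField Cfsg.Agent.KFacts.RgdChevCoord
open Cfsg.Agent.BpExc.TowChev Cfsg.Agent.H129.TorusChar Cfsg.Agent.H865.EE Cfsg.Agent.H405.UE

namespace Cfsg.Agent.H405.EE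

/-! ### the lattice map -/

/-- `Σ a_i b_i` -/
def Em (b : Fin 4 → Fin 8 → ℤ) (a : Fin 4 → ℤ) : Fin 8 → ℤ := ∑ i, a i • b i

theorem Em_add (b : Fin 4 → Fin 8 → ℤ) (a a' : Fin 4 → ℤ) : Em b (a + a') = Em b a + Em b a' := by
  unfold Em
  rw [← Finset.sum_add_distrib]
  exact Finset.sum_congr rfl fun i _ => by rw [Pi.add_apply, add_smul]

theorem Em_smul (b : Fin 4 → Fin 8 → ℤ) (m : ℤ) (a : Fin 4 → ℤ) : Em b (m • a) = m • Em b a := by
  unfold Em
  rw [Finset.smul_sum]
  exact Finset.sum_congr rfl fun i _ => by rw [Pi.smul_apply, smul_eq_mul, mul_smul]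

theorem Em_neg (b : Fin 4 → Fin 8 → ℤ) (a : Fin 4 → ℤ) : Em b (-a) = -Em b a := by
  have := Em_smul b (-1) a
  rwa [neg_one_smul, neg_one_smul] at this

theorem Em_sr (b : Fin 4 → Fin 8 → ℤ) (i : Fin 4) : Em b (sr i) = b i := by
  unfold Em
  rw [Finset.sum_eq_single i (fun j _ hj => by rw [sr_ne hj, zero_smul]) (fun h => absurd (Finset.mem_univ i) h),
    sr_self, one_smul]

theorem cartan4 (i j : Fin 4) : cartanOf chevD4 4 i j = if i = j then 2 else if Adj j i then -1 else 0 := by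
  revert i j; decide +kernel

theorem chk4 : ∀ r < 24, ∀ s < 24, chevD4.chainEntry r s = [] →
    ∑ i : Fin 4, vec chevD4 4 s i * chevD4.cartan i r ≠ -1 := by decide +kernel

theorem nr4 : chevD4.nroots = 24 := by decide +kernel

abbrev cs4 : CoxeterSystem coxeterD4 coxeterD4.Group := coxeterD4.toCoxeterSystem

section

variable {b : Fin 4 → Fin 8 → ℤ} (hb : ∀ i, Rt (b i))
  (hG : ∀ i j, i ≠ j → bf (b i) (b j) = if Adj i j then -1 else 0)

include hb hG

theorem bf_bb (i j : Fin 4) : bf (b j) (b i) = cartanOf chevD4 4 i j := by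
  rw [cartan4]
  by_cases hij : i = j
  · subst hij; rw [if_pos rfl, bf_self (hb i)]
  · rw [if_neg hij, hG j i (Ne.symm hij)]

theorem bf_Em (a : Fin 4 → ℤ) (i : Fin 4) : bf (Em b a) (b i) = pairing (cartanOf chevD4 4) i a := by
  unfold Em pairing
  rw [bf_sum_left]
  refine Finset.sum_congr rfl fun j _ => ?_
  rw [bf_smul_left, bf_bb hb hG, mul_comm]

theorem bf_Em_Em (a a' : Fin 4 → ℤ) :
    bf (Em b a) (Em b a') = ∑ i, a' i * pairing (cartanOf chevD4 4) i a := by
  rw [bf_comm]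
  conv_lhs => unfold Em
  rw [bf_sum_left]
  refine Finset.sum_congr rfl fun j _ => ?_
  rw [bf_smul_left, bf_comm, show (∑ i, a i • b i) = Em b a from rfl, bf_Em hb hG]

theorem Em_inj {a a' : Fin 4 → ℤ} (h : Em b a = Em b a') : a = a' := by
  have h1 : ∀ i, pairing (cartanOf chevD4 4) i a = pairing (cartanOf chevD4 4) i a' := fun i => by
    rw [← bf_Em hb hG, ← bf_Em hb hG, h]
  have h2 := invC_D4
  have key : ∀ (x : Fin 4 → ℤ) (B : Fin 4 → Fin 4 → ℤ), InvC chevD4 4 2 B → ∀ m,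
      ∑ j, B m j * pairing (cartanOf chevD4 4) j x = 2 * x m := by
    intro x B hB m
    unfold pairing
    simp only [Finset.mul_sum]
    rw [Finset.sum_comm]
    have : ∀ i ∈ Finset.univ, ∑ j, B m j * (cartanOf chevD4 4 j i * x i) = (if m = i then 2 else 0) * x i := by
      intro i _
      have h3 := hB m i
      push_cast at h3
      rw [← h3, Finset.sum_mul]
      exact Finset.sum_congr rfl fun j _ => by ring
    rw [Finset.sum_congr rfl this, Finset.sum_eq_single m]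
    · rw [if_pos rfl]
    · intro i _ hi; rw [if_neg (Ne.symm hi), zero_mul]
    · intro h; exact absurd (Finset.mem_univ m) h
  funext m
  have e1 := key a _ h2 m
  have e2 := key a' _ h2 m
  have e3 : 2 * a m = 2 * a' m := by
    rw [← e1, ← e2]
    exact Finset.sum_congr rfl fun j _ => by rw [h1 j]
  omega

theorem Em_root {a : Fin 4 → ℤ} (ha : IsRoot cs4 tp4.isCartan a) : Rt (Em b a) := by
  obtain ⟨w, i, rfl⟩ := ha
  obtain ⟨ω, rfl⟩ := cs4.wordProd_surjective w
  induction ω with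
  | nil =>
    rw [wordProd_nil, map_one, Module.End.one_apply, Em_sr]
    exact hb i
  | cons j ω ih =>
    rw [wordProd_cons, rep_mul_apply, rep_simple_eq]
    generalize rep cs4 tp4.isCartan (cs4.wordProd ω) (sr i) = a at ih ⊢
    have e : Em b (a - pairing (cartanOf chevD4 4) j a • sr j) = act (rf (b j)) (Em b a) := by
      rw [act_rf (hb j), bf_Em hb hG, sub_eq_add_neg, Em_add, Em_neg, Em_smul, Em_sr, ← sub_eq_add_neg]
    rw [e]
    exact ih.act _

theorem Em_vec {r : ℕ} (hr : r < chevD4.nroots) : Rt (Em b (vec chevD4 4 r)) :=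
  Em_root hb hG ((RGDChev.isRoot_iff tp4 cs4 _).2 ⟨r, hr, rfl⟩)

end

/-! ### the homomorphism on the presented group -/

variable (k : Type) [Field k]

/-- root elements -/
noncomputable def gn (b : Fin 4 → Fin 8 → ℤ) : Fin chevD4.nroots × k → ↥(chevE8.group k) :=
  fun p => xc tp8 (Em b (vec chevD4 4 p.1)) p.2

variable {k}

theorem xc_add (v : Fin 8 → ℤ) (s t : k) : xc tp8 v s * xc tp8 v t = xc tp8 v (s + t) :=
  Subtype.ext (xG_add tp8.inList _ s t)

theorem xc_zero (v : Fin 8 → ℤ) : xc tp8 v (0 : k) = 1 := Subtype.ext (xG_zero tp8.inList _)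

theorem lift_stX (b : Fin 4 → Fin 8 → ℤ) {r : ℕ} (hr : r < chevD4.nroots) (t : k) :
    FreeGroup.lift (gn k b) (chevD4.stX r t) = xc tp8 (Em b (vec chevD4 4 r)) t := by
  rw [St.Rels.stX_of_lt hr, FreeGroup.lift_apply_of]
  rfl

theorem lift_nil (b : Fin 4 → Fin 8 → ℤ) : FreeGroup.lift (gn k b) (chevD4.stWord ([] : List (ℕ × k))) = 1 := by
  show FreeGroup.lift (gn k b) (List.prod []) = 1
  rw [List.prod_nil, map_one]

theorem lift_cons (b : Fin 4 → Fin 8 → ℤ) {p : ℕ × k} (hp : p.1 < chevD4.nroots) (w : List (ℕ × k)) :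
    FreeGroup.lift (gn k b) (chevD4.stWord (p :: w)) =
      xc tp8 (Em b (vec chevD4 4 p.1)) p.2 * FreeGroup.lift (gn k b) (chevD4.stWord w) := by
  show FreeGroup.lift (gn k b) (List.prod (List.map _ (p :: w))) = _
  rw [List.map_cons, List.prod_cons, map_mul, lift_stX b hp]
  rfl

section

variable {b : Fin 4 → Fin 8 → ℤ} (hb : ∀ i, Rt (b i))
  (hG : ∀ i j, i ≠ j → bf (b i) (b j) = if Adj i j then -1 else 0)

theorem hrt_xc {r : ℕ} (hr : r < chevE8.nroots) (t : k) : hrt tp8 r t =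
    xc tp8 (vec chevE8 8 r) t * (xc tp8 (-vec chevE8 8 r) (-t⁻¹) * xc tp8 (vec chevE8 8 r) t) *
    (xc tp8 (vec chevE8 8 r) (-1) * (xc tp8 (-vec chevE8 8 r) (-(-1 : k)⁻¹) * xc tp8 (vec chevE8 8 r) (-1))) := by
  apply Subtype.ext
  have hn := RootVec.neg_lt tp8.checked hr
  rw [← vec_neg tp8 hr]
  simp only [Subgroup.coe_mul, coe_xc tp8 hr, coe_xc tp8 hn]
  show hG tp8.inList r t = _
  rw [hG_def, nG_def, nG_def]

theorem hrt_mul {r : ℕ} (hr : r < chevE8.nroots) {s t : k} (hs : s ≠ 0) (ht : t ≠ 0) :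
    hrt tp8 r s * hrt tp8 r t = hrt tp8 r (s * t) := by
  obtain ⟨φ, -, -, h3⟩ := exists_sl2 tp8 k hr
  have h := h3 (Units.mk0 s hs)
  have h' := h3 (Units.mk0 t ht)
  have h'' := h3 (Units.mk0 s hs * Units.mk0 t ht)
  rw [Units.val_mk0] at h h'
  rw [Units.val_mul, Units.val_mk0, Units.val_mk0] at h''
  rw [← h, ← h', ← h'', ← map_mul]
  congr 1
  apply Subtype.ext
  show !![s, 0; 0, s⁻¹] * !![t, 0; 0, t⁻¹] = !![s * t, 0; 0, (s * t)⁻¹]
  ext i j
  fin_cases i <;> fin_cases j <;> simp [mul_comm]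

include hb hG

/-- the image of `h_r(t)` -/
theorem lift_stH {r : ℕ} (hr : r < chevD4.nroots) {r' : ℕ} (hr' : r' < chevE8.nroots)
    (e : vec chevE8 8 r' = Em b (vec chevD4 4 r)) (t : k) :
    FreeGroup.lift (gn k b) (chevD4.stH r t) = hrt tp8 r' t := by
  have hn := RootVec.neg_lt tp4.checked hr
  rw [hrt_xc hr', e, ← Em_neg, ← vec_neg tp4 hr]
  show FreeGroup.lift (gn k b) (chevD4.stWord ((r, t) :: (chevD4.neg r, -t⁻¹) :: (r, t) :: (r, -1) ::
    (chevD4.neg r, -(-1)⁻¹) :: (r, -1) :: [])) = _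
  rw [lift_cons b hr, lift_cons b hn, lift_cons b hr, lift_cons b hr, lift_cons b hn, lift_cons b hr, lift_nil]
  simp only [mul_assoc, mul_one]

variable [CharP k 2]

theorem lift_rel (hk : LocFin k) : ∀ r ∈ chevD4.steinbergRels k, FreeGroup.lift (gn k b) r = 1 := by
  rintro g ((⟨r, t₁, t₂, hr, rfl⟩ | ⟨r, s, t, u, hr, hs, hsr, hsn, rfl⟩) | ⟨r, t₁, t₂, hr, h₁, h₂, rfl⟩)
  · rw [map_mul, map_mul, map_inv, lift_stX b hr, lift_stX b hr, lift_stX b hr, xc_add, mul_inv_cancel]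
  · rw [map_mul, map_mul, map_mul, map_mul, map_inv, map_inv, map_inv, lift_stX b hs, lift_stX b hr]
    have hRr := Em_vec hb hG hr
    have hRs := Em_vec hb hG hs
    have hne : Em b (vec chevD4 4 s) ≠ Em b (vec chevD4 4 r) := fun h =>
      hsr (vec_inj tp4 hs hr (Em_inj hb hG h))
    have hne' : Em b (vec chevD4 4 s) ≠ -Em b (vec chevD4 4 r) := fun h => by
      rw [← Em_neg, ← vec_neg tp4 hr] at h
      exact hsn (vec_inj tp4 hs (RootVec.neg_lt tp4.checked hr) (Em_inj hb hG h))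
    obtain ⟨c1, c2⟩ := comm_root (k := k) hk hRr hRs hne hne' t u
    have hbf : bf (Em b (vec chevD4 4 r)) (Em b (vec chevD4 4 s)) =
        ∑ i : Fin 4, vec chevD4 4 s i * chevD4.cartan i r := by
      rw [bf_Em_Em hb hG]
      exact Finset.sum_congr rfl fun i _ => by rw [pairing_vec tp4 i hr]
    rcases commTerms_sl slOK_D4 r s with ⟨e1, e2⟩ | ⟨v, c, e1, e2, hc⟩
    · have hw : chevD4.commWord k r s t u = [] := by
        unfold ChevalleyDatum.commWord
        rw [e2, List.map_nil]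
      rw [hw, lift_nil, inv_one, mul_one]
      apply c2
      rw [hbf]
      exact chk4 r (nr4 ▸ hr) s (nr4 ▸ hs) e1
    · have hmem : (v, c, 1, 1) ∈ chevD4.commTerms r s := by rw [e2]; exact List.mem_cons_self
      obtain ⟨hv, -, -, -, -, hvec⟩ := commTerms_rt tp4.checked hmem
      have hvec' : vec chevD4 4 v = vec chevD4 4 r + vec chevD4 4 s := by
        funext j
        rw [vec_apply, hvec, Pi.add_apply, vec_apply, vec_apply]
        push_cast
        ring
      have hw : chevD4.commWord k r s t u = [(v, (c : k) * (-t) ^ 1 * u ^ 1)] := by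
        unfold ChevalleyDatum.commWord
        rw [e2, List.map_cons, List.map_nil]
      have hval : (c : k) * (-t) ^ 1 * u ^ 1 = t * u := by
        rw [cast_pm hc, pow_one, pow_one, one_mul]
        have := neg_one_eq (k := k)
        linear_combination (t * u) * this
      have hRv := Em_vec hb hG hv
      have hbf2 : bf (Em b (vec chevD4 4 r)) (Em b (vec chevD4 4 s)) = -1 := by
        have n1 := bf_self hRv
        rw [hvec', Em_add, bf_add_left, bf_add_right, bf_add_right, bf_self hRr, bf_self hRs,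
          bf_comm (Em b (vec chevD4 4 s))] at n1
        omega
      rw [hw, lift_cons b hv, lift_nil, mul_one, hval, (c1 hbf2).2, hvec', Em_add, mul_inv_cancel]
  · obtain ⟨r', hr', e⟩ := (RGDChev.isRoot_iff tp8 cs8 _).1 (Em_vec hb hG hr)
    rw [map_mul, map_mul, map_inv, lift_stH hb hG hr hr' e, lift_stH hb hG hr hr' e, lift_stH hb hG hr hr' e,
      hrt_mul hr' h₁ h₂, mul_inv_cancel]

end

end Cfsg.Agent.H405.EE
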